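import Cfsg.Agent.Lib.Balance.CentralizerCore
import Cfsg.Agent.Lib.Cores.PCore

/-!
A solvable subgroup `X` with an abelian Sylow `r`-subgroup `P` is `O_{r'}(X) N_X(P)`.
-/

set_option autoImplicit false
open Cfsg

namespace CfsgLib.HallNumber

variable {G : Type*} [Group G] [Finite G] {r : ℕ} [Fact r.Prime]

theorem pPrimeCore_sup_normalizer_sylow [Group.IsSolvable G] (S : Sylow r G)
    (hab : IsMulCommutative (S : Subgroup G)) :
    pPrimeCore r G ⊔ Subgroup.normalizer ((S : Subgroup G) : Set G) = ⊤ := by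
  classical
  let O := pPrimeCore r G
  haveI : O.Normal := inferInstanceAs (pPrimeCore r G).Normal
  let f := QuotientGroup.mk' O
  have hfs : Function.Surjective f := QuotientGroup.mk'_surjective O
  let Q := pCore r (G ⧸ O)
  let T := S.mapSurjective hfs
  have hQn : Q.Normal := pCore_normal r (G ⧸ O)
  have hQT : Q ≤ (T : Subgroup (G ⧸ O)) := CfsgLib.Cores.pCore_le_sylow T
  have hTQ : (T : Subgroup (G ⧸ O)) ≤ Q := by
    refine le_trans ?_ (CfsgLib.Balance.centralizer_pCore_le_of_isSolvable (G := G) (p := r))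
    rintro _ ⟨s, hs, rfl⟩
    rw [Subgroup.mem_centralizer_iff]
    intro q hq
    obtain ⟨u, hu, rfl⟩ := hQT hq
    rw [← map_mul, ← map_mul]
    have := hab.is_comm.comm ⟨u, hu⟩ ⟨s, hs⟩
    exact congrArg f (congrArg Subtype.val this)
  have hTn : (T : Subgroup (G ⧸ O)).Normal := by rw [le_antisymm hTQ hQT]; exact hQn
  have hKn := hTn.comap f
  rw [show (T : Subgroup (G ⧸ O)) = (S : Subgroup G).map f from Sylow.coe_mapSurjective _ _,
    Subgroup.comap_map_eq, QuotientGroup.ker_mk'] at hKn
  haveI := hKn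
  let P : Sylow r ↥((S : Subgroup G) ⊔ O) := S.subtype le_sup_left
  have hF := Sylow.normalizer_sup_eq_top P
  have hP : ((P : Subgroup ↥((S : Subgroup G) ⊔ O)).map ((S : Subgroup G) ⊔ O).subtype) = S := by
    rw [Sylow.coe_subtype, Subgroup.map_subgroupOf_eq_of_le le_sup_left]
  rw [hP] at hF
  exact top_le_iff.1 (hF.symm.le.trans (sup_le le_sup_right
    (sup_le (Subgroup.le_normalizer.trans le_sup_right) le_sup_left)))

theorem le_of_abelian_sylow {X P H : Subgroup G} (hX : Group.IsSolvable X) (hPX : P ≤ X)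
    (hP : IsPGroup r P) (hab : IsMulCommutative P) (hPi : ¬ r ∣ P.relIndex X)
    (hO : ∀ K : Subgroup G, K ≤ X → X ≤ Subgroup.normalizer (K : Set G) → ¬ r ∣ Nat.card K → K ≤ H)
    (hN : X ⊓ Subgroup.normalizer (P : Set G) ≤ H) : X ≤ H := by
  haveI := hX
  have hSp : IsPGroup r (P.subgroupOf X) := hP.of_equiv (Subgroup.subgroupOfEquivOfLe hPX).symm
  let S : Sylow r X := hSp.toSylow hPi
  have hab' : IsMulCommutative (S : Subgroup X) := by
    refine ⟨⟨fun a b => ?_⟩⟩
    have h := congrArg Subtype.val (hab.is_comm.comm ⟨_, a.2⟩ ⟨_, b.2⟩)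
    exact Subtype.ext (Subtype.ext h)
  have h := pPrimeCore_sup_normalizer_sylow S hab'
  calc X = (⊤ : Subgroup X).map X.subtype := by rw [← MonoidHom.range_eq_map, Subgroup.range_subtype]
    _ ≤ H := by
      rw [← h, Subgroup.map_sup, sup_le_iff]
      refine ⟨hO _ (Subgroup.map_subtype_le _) ?_ ?_, ?_⟩
      · intro x hx
        have := (Subgroup.le_normalizer_map X.subtype (H := pPrimeCore r X))
        exact this ⟨⟨x, hx⟩, by rw [SetLike.mem_coe, Subgroup.normalizer_eq_top]; trivial, rfl⟩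
      · rw [Subgroup.card_map_of_injective X.subtype_injective]
        exact (Fact.out : r.Prime).coprime_iff_not_dvd.1 (CfsgLib.Cores.card_pPrimeCore_coprime (G := X) r).symm
      · refine le_trans ?_ hN
        rw [le_inf_iff]
        refine ⟨Subgroup.map_subtype_le _, ?_⟩
        have e : ((S : Subgroup X).map X.subtype) = P := Subgroup.map_subgroupOf_eq_of_le hPX
        rw [← e]
        exact Subgroup.le_normalizer_map _

end CfsgLib.HallNumber
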