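import Mathlib
import Cfsg.Agent.Lib.SL2.Dickson.Index

/-!
# Hall numbers: `PSL₂(r)` as counterexamples

For `m` not a prime power, not `2` mod `4` and not `12`, `24`, `60`, some `PSL₂(r)`, `r` a prime,
has order exactly divisible by `m` and no subgroup of order `m`.
-/

set_option autoImplicit false

open Matrix

namespace CfsgLib.HallNumber

open CfsgLib.SL2 CfsgLib.SL2.Dickson CfsgLib.ClassicalLinear

/-- The order of a subgroup of `PSL₂(r)` of order prime to `r`. -/
theorem card_subgroup_cases {r : ℕ} [Fact r.Prime] (hr2 : r ≠ 2)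
    (H : Subgroup (Matrix.ProjectiveSpecialLinearGroup (Fin 2) (ZMod r)))
    (hrH : ¬ r ∣ Nat.card H) :
    Nat.card H ∣ r - 1 ∨ Nat.card H ∣ r + 1 ∨ Nat.card H = 12 ∨ Nat.card H = 24 ∨ Nat.card H = 60 := by
  have hr := Fact.out (p := r.Prime)
  have hodd : Odd r := hr.odd_of_ne_two hr2
  have hq : Nat.card (ZMod r) = r := Nat.card_zmod r
  have h2 : (2 : ZMod r) ≠ 0 := fun h => by
    have h' : ((2 : ℕ) : ZMod r) = 0 := by exact_mod_cast h
    rw [ZMod.natCast_eq_zero_iff] at h'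
    exact hr2 ((Nat.prime_dvd_prime_iff_eq hr Nat.prime_two).1 h')
  have hg : Nat.gcd 2 (r - 1) = 2 := Nat.gcd_eq_left (by
    obtain ⟨k, hk⟩ := hodd
    exact ⟨k, by omega⟩)
  rcases classification (center_le_lift H) with h | h | ⟨hi, -⟩ | ⟨hi, -⟩ | ⟨hi, -⟩ |
      ⟨R, k, -, hi, -⟩
  · left
    obtain ⟨u, hu⟩ := h
    let φ : lift H →* borel (ZMod r) :=
      ((MulAut.conj u).toMonoidHom.comp (lift H).subtype).codRestrict _ fun g => hu g g.2
    have hφ : Function.Injective φ := fun x y e =>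
      Subtype.ext ((MulAut.conj u).injective (congrArg Subtype.val e))
    have hd := Subgroup.card_dvd_of_injective φ hφ
    rw [card_lift, card_borel, hq] at hd
    have h1 : Nat.card H ∣ r * (r - 1) := (dvd_mul_left _ _).trans hd
    exact Nat.Coprime.dvd_of_dvd_mul_left ((hr.coprime_iff_not_dvd.2 hrH).symm) h1
  · obtain ⟨k, hk, hiso⟩ := torus_case (center_le_lift H) h
    rw [hq, hg] at hk
    have e := Nat.card_congr (liftEquiv H).toEquiv
    have h2k : Nat.card H ∣ 2 * k := by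
      rcases hiso with ⟨-, hc⟩ | ⟨⟨f⟩⟩
      · rw [hc] at e
        exact e ▸ dvd_mul_left k 2
      · have := Nat.card_congr f.toEquiv
        rw [DihedralGroup.nat_card, e] at this
        exact this ▸ dvd_rfl
    obtain ⟨l, hl⟩ := hodd
    rcases hk with hk | hk
    · exact Or.inr (Or.inl (h2k.trans (by
        have : 2 * ((r + 1) / 2) = r + 1 := Nat.mul_div_cancel' ⟨l + 1, by omega⟩
        exact this ▸ Nat.mul_dvd_mul_left 2 hk)))
    · exact Or.inl (h2k.trans (by
        have : 2 * ((r - 1) / 2) = r - 1 := Nat.mul_div_cancel' ⟨l, by omega⟩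
        exact this ▸ Nat.mul_dvd_mul_left 2 hk))
  · rw [card_eq_index_zG] at hi; exact Or.inr (Or.inr (Or.inl hi))
  · rw [card_eq_index_zG] at hi; exact Or.inr (Or.inr (Or.inr (Or.inl hi)))
  · rw [card_eq_index_zG] at hi; exact Or.inr (Or.inr (Or.inr (Or.inr hi)))
  · exfalso
    rw [card_eq_index_zG] at hi
    have hpow : Nat.card R ^ Module.finrank R (ZMod r) = r :=
      ((Module.natCard_eq_pow_finrank (K := R) (V := ZMod r)).symm).trans hq
    have hR : Nat.card R = r := by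
      rw [← hpow] at hr
      have h1 := Nat.Prime.eq_one_of_pow hr
      rw [h1, pow_one] at hpow
      exact hpow
    exact hrH (by rw [hi, hR]; exact (dvd_mul_right r k).trans (dvd_mul_right _ _))

/-- Arithmetic: a prime `r > m` with `m` exactly dividing `r (r² - 1) / 2` and dividing neither
`r - 1` nor `r + 1`. -/
theorem exists_prime (m : ℕ) (hm : 2 ≤ m) (hpp : ¬ IsPrimePow m) (h4 : m % 4 ≠ 2) :
    ∃ r, r.Prime ∧ m < r ∧ ¬ m ∣ r - 1 ∧ ¬ m ∣ r + 1 ∧
      ∀ N, 2 * N = r * ((r + 1) * (r - 1)) → m ∣ N ∧ m.Coprime (N / m) := by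
  classical
  -- split `m = A * B`
  obtain ⟨A, B, hAB, hcop, hA3, hB3, hBodd, hAe⟩ : ∃ A B : ℕ, m = A * B ∧ A.Coprime B ∧ 3 ≤ A ∧
      3 ≤ B ∧ Odd B ∧ (Odd A ∨ 4 ∣ A) := by
    have hm0 : m ≠ 0 := by omega
    -- the first prime
    obtain ⟨p, hp, hpm, hp2⟩ : ∃ p, p.Prime ∧ p ∣ m ∧ (Even m → p = 2) := by
      by_cases he : Even m
      · exact ⟨2, Nat.prime_two, even_iff_two_dvd.1 he, fun _ => rfl⟩
      · obtain ⟨p, hp, hpm⟩ := Nat.exists_prime_and_dvd (show m ≠ 1 by omega)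
        exact ⟨p, hp, hpm, fun h => absurd h he⟩
    set e := m.factorization p with he
    have he0 : 0 < e := hp.factorization_pos_of_dvd hm0 hpm
    have hfac : p ^ e * (m / p ^ e) = m := Nat.ordProj_mul_ordCompl_eq_self m p
    have hcop : (p ^ e).Coprime (m / p ^ e) := (Nat.coprime_ordCompl hp hm0).pow_left e
    have hB1 : m / p ^ e ≠ 1 := fun h => hpp (by
      rw [h, mul_one] at hfac
      exact ⟨p, e, hp.prime, he0, hfac⟩)
    have hBpos : 0 < m / p ^ e := Nat.ordCompl_pos p hm0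
    have hBodd : Odd (m / p ^ e) := by
      by_cases hev : Even m
      · rw [hp2 hev] at hcop ⊢
        exact Nat.coprime_two_left.1 (hcop.coprime_dvd_left (dvd_pow_self 2 he0.ne'))
      · exact (Nat.not_even_iff_odd.1 hev).of_dvd_nat ⟨p ^ e, by rw [mul_comm]; exact hfac.symm⟩
    have hpe : p ≤ p ^ e := Nat.le_self_pow he0.ne' p
    refine ⟨p ^ e, m / p ^ e, hfac.symm, hcop, ?_, ?_, hBodd, ?_⟩
    · rcases Nat.even_or_odd m with hev | hodd
      · obtain rfl := hp2 hev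
        have : e ≠ 1 := fun h => h4 (by
          rw [h, pow_one] at hfac hBodd
          obtain ⟨b, hb⟩ := hBodd
          omega)
        calc 3 ≤ 2 ^ 2 := by norm_num
          _ ≤ _ := Nat.pow_le_pow_right two_pos (by omega)
      · have : p ≠ 2 := by
          rintro rfl
          exact Nat.not_even_iff_odd.2 hodd (even_iff_two_dvd.2 hpm)
        have := hp.two_le
        omega
    · obtain ⟨b, hb⟩ := hBodd
      omega
    · rcases Nat.even_or_odd m with hev | hodd
      · obtain rfl := hp2 hev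
        right
        have : e ≠ 1 := fun h => h4 (by
          rw [h, pow_one] at hfac hBodd
          obtain ⟨b, hb⟩ := hBodd
          omega)
        exact Nat.pow_dvd_pow 2 (show 2 ≤ e by omega)
      · exact Or.inl (hodd.of_dvd_nat ⟨_, hfac.symm⟩)
  -- the residue and the prime
  have hcop2 : (A ^ 2).Coprime (B ^ 2) := hcop.pow 2 2
  obtain ⟨c, hcA, hcB⟩ := Nat.chineseRemainder hcop2 (1 + A) (B ^ 2 - 1 + B)
  have hc : c.Coprime (A ^ 2 * B ^ 2) := by
    refine Nat.Coprime.mul_right (Nat.Coprime.pow_right 2 ?_) (Nat.Coprime.pow_right 2 ?_)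
    · have h1 := (hcA.of_dvd (dvd_pow_self A two_ne_zero)).gcd_eq
      rw [Nat.Coprime, h1]
      simp
    · have h1 : Nat.Coprime (B ^ 2 - 1 + B) B := by
        rw [Nat.coprime_add_self_left]
        have h2 : B ^ 2 - 1 + 1 = B ^ 2 := Nat.sub_add_cancel (Nat.one_le_pow _ _ (by omega))
        exact Nat.coprime_of_dvd' fun p hp hp1 hp2 => by
          have h3 := Nat.dvd_sub (h2 ▸ (dvd_pow hp2 two_ne_zero) : p ∣ B ^ 2 - 1 + 1) hp1
          rwa [Nat.add_sub_cancel_left] at h3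
      rw [Nat.Coprime, (hcB.of_dvd (dvd_pow_self B two_ne_zero)).gcd_eq]
      exact h1
  obtain ⟨r, hrm, hr, hrc⟩ := Nat.forall_exists_prime_gt_and_modEq (m + 2)
    (Nat.mul_pos (pow_pos (by omega) 2) (pow_pos (by omega) 2)).ne' hc
  have hrA : r ≡ 1 + A [MOD A ^ 2] := (hrc.of_dvd (dvd_mul_right _ _)).trans hcA
  have hrB : r ≡ B ^ 2 - 1 + B [MOD B ^ 2] := (hrc.of_dvd (dvd_mul_left _ _)).trans hcB
  -- `r - 1 = A u` and `r + 1 = B v`
  obtain ⟨u, hu, hucop⟩ : ∃ u, r - 1 = A * u ∧ u.Coprime A := by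
    have h1 := Nat.ModEq.add_right_cancel' 1 (show r - 1 + 1 ≡ A + 1 [MOD A ^ 2] by
      rw [Nat.sub_add_cancel (by omega), add_comm A]; exact hrA)
    have hd : A ∣ r - 1 := ((h1.of_dvd (dvd_pow_self A two_ne_zero)).dvd_iff dvd_rfl).2 dvd_rfl
    obtain ⟨u, hu⟩ := hd
    refine ⟨u, hu, ?_⟩
    rw [hu, pow_two] at h1
    have h2 : u ≡ 1 [MOD A] := Nat.ModEq.mul_left_cancel' (c := A) (by omega) (by rw [mul_one]; exact h1)
    rw [Nat.Coprime, h2.gcd_eq, Nat.gcd_one_left]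
  obtain ⟨v, hv, hvcop⟩ : ∃ v, r + 1 = B * v ∧ v.Coprime B := by
    have h1 : r + 1 ≡ B [MOD B ^ 2] := by
      refine (hrB.add_right 1).trans ?_
      rw [show B ^ 2 - 1 + B + 1 = B + B ^ 2 by
        have := Nat.one_le_pow 2 B (by omega); omega]
      exact Nat.add_modEq_right
    have hd : B ∣ r + 1 := ((h1.of_dvd (dvd_pow_self B two_ne_zero)).dvd_iff dvd_rfl).2 dvd_rfl
    obtain ⟨v, hv⟩ := hd
    refine ⟨v, hv, ?_⟩
    rw [hv, pow_two] at h1
    have h2 : v ≡ 1 [MOD B] := Nat.ModEq.mul_left_cancel' (c := B) (by omega) (by rw [mul_one]; exact h1)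
    rw [Nat.Coprime, h2.gcd_eq, Nat.gcd_one_left]
  have hAle : A ≤ m := Nat.le_of_dvd (by omega) ⟨B, hAB⟩
  have hBle : B ≤ m := Nat.le_of_dvd (by omega) ⟨A, by rw [hAB, mul_comm]⟩
  have hnA : ∀ p, p.Prime → p ∣ A → ¬ p = 2 → ¬ p ∣ r + 1 := fun p hp hpA hp2 h => by
    have h1 : p ∣ r - 1 := hu ▸ hpA.mul_right u
    have h3 := Nat.dvd_sub h h1
    rw [show r + 1 - (r - 1) = 2 by omega] at h3
    exact hp2 ((Nat.prime_dvd_prime_iff_eq hp Nat.prime_two).1 h3)
  have hnB : ∀ p, p.Prime → p ∣ B → ¬ p ∣ r - 1 := fun p hp hpB h => by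
    have h1 : p ∣ r + 1 := hv ▸ hpB.mul_right v
    have h3 := Nat.dvd_sub h1 h
    rw [show r + 1 - (r - 1) = 2 by omega] at h3
    have := (Nat.prime_dvd_prime_iff_eq hp Nat.prime_two).1 h3
    subst this
    exact Nat.not_even_iff_odd.2 hBodd (even_iff_two_dvd.2 hpB)
  have hrodd : Odd r := hr.odd_of_ne_two (by omega)
  refine ⟨r, hr, by omega, fun h => ?_, fun h => ?_, fun N hN => ?_⟩
  · obtain ⟨p, hp, hpB⟩ := Nat.exists_prime_and_dvd (show B ≠ 1 by omega)
    exact hnB p hp hpB ((hpB.trans ⟨A, by rw [hAB, mul_comm]⟩).trans h)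
  · rcases hAe with hA | hA
    · obtain ⟨p, hp, hpA⟩ := Nat.exists_prime_and_dvd (show A ≠ 1 by omega)
      exact hnA p hp hpA (fun e => Nat.not_even_iff_odd.2 hA (even_iff_two_dvd.2 (e ▸ hpA)))
        ((hpA.trans ⟨B, hAB⟩).trans h)
    · have h1 : 4 ∣ r + 1 := (hA.trans ⟨B, hAB⟩).trans h
      have h2 : 4 ∣ r - 1 := hu ▸ hA.mul_right u
      omega
  · -- the index `r u v / 2`
    have hev : Even v := by
      have h1 : Even (B * v) := hv ▸ hrodd.add_one
      exact (Nat.even_mul.1 h1).resolve_left (Nat.not_even_iff_odd.2 hBodd)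
    obtain ⟨w, hw⟩ := hev
    have hN' : N = m * (r * u * w) := by
      have : 2 * N = 2 * (m * (r * u * w)) := by rw [hN, hu, hv, hw, hAB]; ring
      omega
    refine ⟨⟨_, hN'⟩, ?_⟩
    rw [hN', Nat.mul_div_cancel_left _ (by omega : 0 < m)]
    have hrA' : A.Coprime r := Nat.Coprime.symm (hr.coprime_iff_not_dvd.2 fun h => by
      have := Nat.le_of_dvd (by omega) h
      omega)
    have hrB' : B.Coprime r := Nat.Coprime.symm (hr.coprime_iff_not_dvd.2 fun h => by
      have := Nat.le_of_dvd (by omega) h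
      omega)
    have hwv : w ∣ v := ⟨2, by omega⟩
    rw [hAB]
    refine Nat.Coprime.mul_left ((hrA'.mul_right hucop.symm).mul_right ?_)
      ((hrB'.mul_right ?_).mul_right (hvcop.coprime_dvd_left hwv).symm)
    · refine Nat.coprime_of_dvd fun p hp hpA hpw => ?_
      rcases eq_or_ne p 2 with rfl | hp2
      · have hA : 4 ∣ A := hAe.resolve_left fun h => Nat.not_even_iff_odd.2 h (even_iff_two_dvd.2 hpA)
        have h2 : 4 ∣ r - 1 := hu ▸ hA.mul_right u
        have h3 : 4 ∣ r + 1 := by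
          rw [hv, hw, ← two_mul, show (4 : ℕ) = 2 * 2 from rfl, mul_left_comm]
          exact Nat.mul_dvd_mul_left 2 (hpw.mul_left B)
        omega
      · exact hnA p hp hpA hp2 (hv ▸ (hpw.trans hwv).mul_left B)
    · exact Nat.coprime_of_dvd fun p hp hpB hpu => hnB p hp hpB (hu ▸ hpu.mul_left A)

theorem exists_counterexample (m : ℕ) (hm : 2 ≤ m)
    (h : ¬ (IsPrimePow m ∨ m % 4 = 2 ∨ m = 12 ∨ m = 24 ∨ m = 60)) :
    ∃ (G : Type) (_ : Group G) (_ : Finite G), m ∣ Nat.card G ∧ m.Coprime (Nat.card G / m) ∧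
      ∀ H : Subgroup G, Nat.card H ≠ m := by
  simp only [not_or] at h
  obtain ⟨hpp, h4, h12, h24, h60⟩ := h
  obtain ⟨r, hr, hmr, h1, h2, hN⟩ := exists_prime m hm hpp h4
  haveI : Fact r.Prime := ⟨hr⟩
  refine ⟨Matrix.ProjectiveSpecialLinearGroup (Fin 2) (ZMod r), inferInstance, inferInstance, ?_⟩
  have hodd : Odd r := hr.odd_of_ne_two (by omega)
  have h20 : (2 : ZMod r) ≠ 0 := fun h => by
    have h' : ((2 : ℕ) : ZMod r) = 0 := by exact_mod_cast h
    rw [ZMod.natCast_eq_zero_iff] at h'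
    have := (Nat.prime_dvd_prime_iff_eq hr Nat.prime_two).1 h'
    omega
  have hcard := card_PSL_mul (F := ZMod r)
  rw [center_card_of_odd h20, Nat.card_zmod] at hcard
  obtain ⟨hd, hc⟩ := hN _ hcard
  refine ⟨hd, hc, fun H hH => ?_⟩
  rcases card_subgroup_cases (by omega) H (fun h => by
    have := Nat.le_of_dvd (by omega) (hH ▸ h)
    omega) with e | e | e | e | e <;> rw [hH] at e
  · exact h1 e
  · exact h2 e
  · exact h12 e
  · exact h24 e
  · exact h60 e

end CfsgLib.HallNumber
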