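import Cfsg.Agent.Lib.PGroups.CenterThompsonNormal
import Cfsg.Agent.Lib.PGroups.SLFreeCriteria
import Cfsg.Agent.Lib.ThompsonJ.Basic
import Cfsg.Agent.Lib.BGUniqueness.CenterJ
import Cfsg.Agent.Lib.Balance.CentralizerCore

/-!
For a solvable subgroup `X` of a group with abelian Sylow 2-subgroups and a Sylow `r`-subgroup `P` of
`X`, `r` odd: `X` is generated by any bound for its normal `r'`-subgroups and `N_X(Z(J(P)))`.
-/

set_option autoImplicit false
open Cfsg

namespace CfsgLib.HallNumber

variable {G : Type*} [Group G] [Finite G] {r : ℕ} [Fact r.Prime]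

/-- `X = O_{r'}(X) N_X(Z(J(P)))`. -/
theorem pPrimeCore_sup_normalizer_zj [Group.IsSolvable G] (hr : r ≠ 2)
    (hab : ∀ T : Sylow 2 G, IsMulCommutative T) (S : Sylow r G) :
    pPrimeCore r G ⊔ Subgroup.normalizer (centerThompsonOf r (S : Subgroup G) : Set G) = ⊤ := by
  classical
  let O := pPrimeCore r G
  haveI : O.Normal := inferInstanceAs (pPrimeCore r G).Normal
  let f := QuotientGroup.mk' O
  have hfs : Function.Surjective f := QuotientGroup.mk'_surjective O
  let φ := f.comp (S : Subgroup G).subtype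
  have hinj : Function.Injective φ := by
    rw [← MonoidHom.ker_eq_bot_iff, eq_bot_iff]
    intro s hs
    obtain ⟨k, hk⟩ := IsPGroup.iff_card.mp S.2
    have hc : (Nat.card (S : Subgroup G)).Coprime (Nat.card O) := by
      rw [hk]
      exact (CfsgLib.Cores.card_pPrimeCore_coprime (G := G) r).symm.pow_left k
    have h0 : (s : G) ∈ (S : Subgroup G) ⊓ O := ⟨s.2, (QuotientGroup.eq_one_iff _).mp hs⟩
    rw [(Subgroup.disjoint_of_coprime_natCard hc).eq_bot, Subgroup.mem_bot] at h0
    exact Subgroup.mem_bot.mpr (Subtype.ext h0)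
  let J₀ := thompsonSubgroup r (S : Subgroup G)
  have h1 : (J₀ ⊓ Subgroup.centralizer (J₀ : Set (S : Subgroup G))).map (S : Subgroup G).subtype =
      centerThompsonOf r (S : Subgroup G) :=
    CfsgLib.ThompsonJ.map_inf_centralizer (S : Subgroup G).subtype_injective J₀
  have h2 : thompsonSubgroupOf r (S.mapSurjective hfs : Subgroup (G ⧸ O)) = J₀.map φ := by
    rw [show J₀ = thompsonSubgroupOf r ⊤ from (CfsgLib.ThompsonJ.thompsonSubgroupOf_top r _).symm,
      CfsgLib.ThompsonJ.map_thompsonSubgroupOf hinj, Sylow.coe_mapSurjective, ← Subgroup.map_map,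
      ← MonoidHom.range_eq_map, Subgroup.range_subtype]
  have hmap : centerThompsonOf r (S.mapSurjective hfs : Subgroup (G ⧸ O)) =
      (centerThompsonOf r (S : Subgroup G)).map f := by
    rw [CfsgLib.ThompsonJ.centerThompsonOf_def, h2, ← CfsgLib.ThompsonJ.map_inf_centralizer hinj,
      ← h1, Subgroup.map_map]
  have hfree := ((CfsgLib.PGroups.SLFree.of_abelian_sylow_two (p := r) hr hab).of_surjective f hfs)
  have hn := CfsgLib.PGroups.centerThompsonOf_normal hr (S.mapSurjective hfs)
    CfsgLib.Balance.centralizer_pCore_le_of_isSolvable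
    (fun V _ hV => hfree.isPStableOn hr V hV)
  rw [hmap] at hn
  have h3 := hn.comap f
  rw [Subgroup.comap_map_eq, QuotientGroup.ker_mk'] at h3
  -- Frattini
  set Z := centerThompsonOf r (S : Subgroup G) with hZdef
  haveI := h3
  have hZS : Z ≤ (S : Subgroup G) := inf_le_left.trans (CfsgLib.ThompsonJ.thompsonSubgroupOf_le r _)
  set N := Z ⊔ O with hN
  have hco : ¬ r ∣ (Z.subgroupOf N).index := by
    intro hd
    have hsup : (Z.subgroupOf N).index ∣ Nat.card O := by
      show Z.relIndex N ∣ _
      have h1 : O.relIndex N ∣ Nat.card Z := by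
        rw [hN, sup_comm, Subgroup.relIndex_sup_left]
        exact Subgroup.relIndex_dvd_card _ _
      obtain ⟨k, hk⟩ := h1
      have e1 : Nat.card Z * Z.relIndex N = Nat.card N := by
        rw [← Subgroup.relIndex_bot_left, ← Subgroup.relIndex_bot_left,
          Subgroup.relIndex_mul_relIndex _ _ _ bot_le le_sup_left]
      have e2 : Nat.card O * O.relIndex N = Nat.card N := by
        rw [← Subgroup.relIndex_bot_left, ← Subgroup.relIndex_bot_left,
          Subgroup.relIndex_mul_relIndex _ _ _ bot_le le_sup_right]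
      have h0 : 0 < O.relIndex N := by
        rcases Nat.eq_zero_or_pos (O.relIndex N) with h0 | h0
        · rw [h0, mul_zero] at e2
          exact absurd e2.symm (Nat.card_pos).ne'
        · exact h0
      refine ⟨k, ?_⟩
      apply Nat.eq_of_mul_eq_mul_left h0
      calc O.relIndex N * Nat.card O = Nat.card Z * Z.relIndex N := by rw [mul_comm, e1, e2]
        _ = _ := by rw [hk]; ring
    exact ((Fact.out : r.Prime).coprime_iff_not_dvd.1
      (CfsgLib.Cores.card_pPrimeCore_coprime (G := G) r).symm) (hd.trans hsup)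
  have hZp : IsPGroup r (Z.subgroupOf N) :=
    (S.2.to_le hZS).of_equiv (Subgroup.subgroupOfEquivOfLe le_sup_left).symm
  let P : Sylow r N := hZp.toSylow hco
  have hF := Sylow.normalizer_sup_eq_top P
  have hP : ((P : Subgroup N).map N.subtype) = Z := by
    rw [IsPGroup.toSylow_coe, Subgroup.map_subgroupOf_eq_of_le le_sup_left]
  rw [hP] at hF
  have hZN : Z ≤ Subgroup.normalizer (Z : Set G) := Subgroup.le_normalizer
  refine top_le_iff.1 (hF.symm.le.trans (sup_le le_sup_right (sup_le (hZN.trans le_sup_right) le_sup_left)))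

/-- The factorisation inside an ambient group. -/
theorem le_of_zj (hr : r ≠ 2) (hab : ∀ T : Sylow 2 G, IsMulCommutative T) {X P H : Subgroup G}
    (hX : Group.IsSolvable X) (hPX : P ≤ X) (hP : IsPGroup r P) (hPi : ¬ r ∣ P.relIndex X)
    (hO : ∀ K : Subgroup G, K ≤ X → X ≤ Subgroup.normalizer (K : Set G) → ¬ r ∣ Nat.card K → K ≤ H)
    (hN : X ⊓ Subgroup.normalizer (centerThompsonOf r P : Set G) ≤ H) : X ≤ H := by
  haveI := hX
  have hab' : ∀ T : Sylow 2 X, IsMulCommutative T := fun T => by
    obtain ⟨T', hT'⟩ := (T.2.map X.subtype).exists_le_sylow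
    refine ⟨⟨fun a b => ?_⟩⟩
    have h := congrArg Subtype.val ((hab T').is_comm.comm ⟨_, hT' ⟨_, a.2, rfl⟩⟩ ⟨_, hT' ⟨_, b.2, rfl⟩⟩)
    exact Subtype.ext (Subtype.ext h)
  have hSp : IsPGroup r (P.subgroupOf X) := hP.of_equiv (Subgroup.subgroupOfEquivOfLe hPX).symm
  let S : Sylow r X := hSp.toSylow hPi
  have hS : (S : Subgroup X).map X.subtype = P := by
    exact Subgroup.map_subgroupOf_eq_of_le hPX
  have h := pPrimeCore_sup_normalizer_zj hr hab' S
  have hZ : (centerThompsonOf r (S : Subgroup X)).map X.subtype = centerThompsonOf r P := by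
    rw [CfsgLib.ThompsonJ.centerThompsonOf_def, CfsgLib.ThompsonJ.map_inf_centralizer X.subtype_injective,
      CfsgLib.ThompsonJ.map_thompsonSubgroupOf X.subtype_injective, hS,
      ← CfsgLib.ThompsonJ.centerThompsonOf_def]
  calc X = (⊤ : Subgroup X).map X.subtype := by rw [← MonoidHom.range_eq_map, Subgroup.range_subtype]
    _ ≤ H := by
      rw [← h, Subgroup.map_sup, sup_le_iff]
      refine ⟨hO _ (Subgroup.map_subtype_le _) ?_ ?_, ?_⟩
      · intro x hx
        have := (Subgroup.le_normalizer_map X.subtype (H := pPrimeCore r X))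
        exact this ⟨⟨x, hx⟩, by rw [SetLike.mem_coe, Subgroup.normalizer_eq_top]; trivial, rfl⟩
      · rw [Subgroup.card_map_of_injective X.subtype_injective]
        exact (Fact.out : r.Prime).coprime_iff_not_dvd.1 (CfsgLib.Cores.card_pPrimeCore_coprime (G := X) r).symm
      · refine le_trans ?_ hN
        rw [le_inf_iff]
        refine ⟨Subgroup.map_subtype_le _, ?_⟩
        rw [← hZ]
        exact Subgroup.le_normalizer_map _

end CfsgLib.HallNumber
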