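/-
Hall numbers: subgroups of order a prime power, `4k + 2`, twelve and twenty-four in finite groups
whose order they divide exactly (S4044).
-/
import Cfsg.Agent.Lib.HallNumber.EightSeven.Setup
import Cfsg.Agent.Lib.NormalPComplement.Frobenius
import Cfsg.Agent.Lib.CharTheory.Burnside
import Cfsg.Agent.S0003
import Cfsg.Agent.S0205

set_option autoImplicit false
set_option linter.style.haveILetI false
set_option linter.unusedSectionVars false

open Cfsg
open scoped Pointwise

namespace CfsgLib.HallNumber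

universe u

section Basics

variable {G : Type u} [Group G] [Finite G]

/-- A subgroup of order `m` inside a solvable subgroup of order divisible by `m`. -/
theorem exists_card_of_solvable (K : Subgroup G) [Group.IsSolvable K] {m : ℕ}
    (hm : m ∣ Nat.card K) (hc : m.Coprime (Nat.card K / m)) :
    ∃ H : Subgroup G, Nat.card H = m := by
  obtain ⟨H, hH⟩ := Cfsg.Agent.S0003.result m (Nat.card K / m) (Nat.mul_div_cancel' hm).symm hc
  exact ⟨H.map K.subtype, by rw [Subgroup.card_map_of_injective K.subtype_injective, hH]⟩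

/-- Coprimality passes to subgroups. -/
theorem coprime_div_of_dvd {m a b : ℕ} (hm : m ∣ a) (hab : a ∣ b) (hc : m.Coprime (b / m)) :
    m.Coprime (a / m) :=
  hc.coprime_dvd_right (Nat.div_dvd_div hm hab)

theorem isSolvable_of_normalizer_le_centralizer_two (P : Sylow 2 G)
    (hN : Subgroup.normalizer ((P : Subgroup G) : Set G) ≤
      Subgroup.centralizer ((P : Subgroup G) : Set G)) : Group.IsSolvable G := by
  haveI : Fact (Nat.Prime 2) := ⟨Nat.prime_two⟩
  set φ := MonoidHom.transferSylow P hN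
  haveI : Group.IsSolvable φ.ker := Cfsg.Agent.S0205.result
    (Nat.not_even_iff_odd.1 fun he =>
      MonoidHom.not_dvd_card_ker_transferSylow P hN (even_iff_two_dvd.1 he))
  haveI : Group.IsSolvable (P : Subgroup G) := by
    haveI := P.isPGroup'.isNilpotent
    infer_instance
  exact Group.isSolvable_of_ker_le_range φ.ker.subtype φ (by rw [Subgroup.range_subtype])

theorem isSolvable_of_normalPComplement_two (h : HasNormalPComplement 2 G) :
    Group.IsSolvable G := by
  haveI : Fact (Nat.Prime 2) := ⟨Nat.prime_two⟩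
  obtain ⟨P, N, hN, hc⟩ := h
  haveI := hN
  haveI : Group.IsSolvable N := Cfsg.Agent.S0205.result
    (Nat.not_even_iff_odd.1 fun he => P.not_dvd_index (by
      rw [hc.index_eq_card]; exact even_iff_two_dvd.1 he))
  haveI : Group.IsSolvable (G ⧸ N) := by
    haveI := P.isPGroup'.isNilpotent
    exact Group.isSolvable_of_surjective (f := hc.symm.QuotientMulEquiv.symm.toMonoidHom)
      hc.symm.QuotientMulEquiv.symm.surjective
  exact Group.isSolvable_of_ker_le_range N.subtype (QuotientGroup.mk' N)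
    (by rw [QuotientGroup.ker_mk', Subgroup.range_subtype])

/-- A group whose order is not divisible by four is solvable. -/
theorem isSolvable_of_not_four (h : ¬ 4 ∣ Nat.card G) : Group.IsSolvable G := by
  haveI : Fact (Nat.Prime 2) := ⟨Nat.prime_two⟩
  by_cases hev : 2 ∣ Nat.card G
  swap
  · exact Cfsg.Agent.S0205.result (Nat.not_even_iff_odd.1 fun he => hev (even_iff_two_dvd.1 he))
  obtain ⟨P⟩ : Nonempty (Sylow 2 G) := inferInstance
  obtain ⟨k, hk⟩ := P.isPGroup'.exists_card_eq
  have hcyc : IsCyclic (P : Subgroup G) := by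
    rcases Nat.lt_or_ge k 2 with hk2 | hk2
    · rcases (show k = 0 ∨ k = 1 by omega) with rfl | rfl
      · rw [pow_zero] at hk
        haveI := (Nat.card_eq_one_iff_unique.1 hk).1
        infer_instance
      · exact isCyclic_of_prime_card (by rw [hk, pow_one])
    · exact absurd (((pow_dvd_pow 2 hk2).trans (dvd_of_eq hk.symm)).trans
        (Subgroup.card_subgroup_dvd_card _)) h
  exact isSolvable_of_normalizer_le_centralizer_two P
    (IsCyclic.normalizer_le_centralizer
      (Nat.minFac_eq_two_iff _ |>.2 hev) hcyc)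

/-- The normalizer of a 2-subgroup `Q` of order at least four. -/
theorem isSolvable_normalizer {Q : Subgroup G} (h16 : ¬ 16 ∣ Nat.card G)
    (hQ : Nat.card Q = 4 ∨ Nat.card Q = 8) :
    Group.IsSolvable (Subgroup.normalizer (Q : Set G)) := by
  haveI : Fact (Nat.Prime 2) := ⟨Nat.prime_two⟩
  set N := Subgroup.normalizer (Q : Set G)
  set Q' := Q.subgroupOf N
  have hcard : Nat.card Q' = Nat.card Q :=
    Nat.card_congr (Subgroup.subgroupOfEquivOfLe Subgroup.le_normalizer).toEquiv
  haveI hQs : Group.IsSolvable Q' := by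
    haveI : Group.IsNilpotent Q' := (IsPGroup.of_card (p := 2)
      (n := if Nat.card Q = 4 then 2 else 3) (by
        rw [hcard]; rcases hQ with e | e <;> rw [e] <;> rfl)).isNilpotent
    infer_instance
  haveI : Group.IsSolvable (N ⧸ Q') := isSolvable_of_not_four fun h4 => h16 <| by
    have h1 : Nat.card (N ⧸ Q') * Nat.card Q' = Nat.card N :=
      (Subgroup.card_eq_card_quotient_mul_card_subgroup Q').symm
    refine dvd_trans ?_ (Subgroup.card_subgroup_dvd_card N)
    rw [← h1, hcard, show (16 : ℕ) = 4 * 4 by norm_num]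
    refine mul_dvd_mul h4 ?_
    rcases hQ with e | e <;> rw [e] <;> norm_num
  exact Group.isSolvable_of_ker_le_range Q'.subtype (QuotientGroup.mk' Q')
    (by rw [QuotientGroup.ker_mk', Subgroup.range_subtype])

end Basics

section Automorphisms

variable {Q : Type u} [Group Q] [Finite Q]

theorem mulAut_eq_one_of_card_le_two (h : Nat.card Q ≤ 2) (φ : MulAut Q) : φ = 1 := by
  refine MulEquiv.ext fun x => ?_
  show φ x = x
  by_cases hx : x = 1
  · rw [hx, map_one]
  by_contra hne
  have hinj : Function.Injective ![(1 : Q), x, φ x] := by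
    have hφx : φ x ≠ 1 := fun e => hx (φ.injective (e.trans (map_one φ).symm))
    intro i j hij
    fin_cases i <;> fin_cases j <;> first
      | rfl
      | exact absurd hij (Ne.symm hx)
      | exact absurd hij hx
      | exact absurd hij (Ne.symm hφx)
      | exact absurd hij hφx
      | exact absurd hij hne
      | exact absurd hij (Ne.symm hne)
  have := Nat.card_le_card_of_injective _ hinj
  rw [Nat.card_fin] at this
  omega

/-- A nontrivial automorphism of odd order prime to three of a group of order dividing eight. -/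
theorem mulAut_small (hQ : Nat.card Q ∣ 8) {φ : MulAut Q} (hφ : φ ≠ 1)
    (hodd : Odd (orderOf φ)) (h3 : ¬ 3 ∣ orderOf φ) :
    Nat.card Q = 8 ∧ (∀ x : Q, x * x = 1) ∧ (∀ a : Q, φ a = a → a = 1) ∧
      ∀ a b : Q, a ≠ 1 → b ≠ 1 → ∃ j : ℕ, (φ ^ j) a = b := by
  obtain ⟨p, hp, hpd⟩ := Nat.exists_prime_and_dvd (n := orderOf φ)
    fun h => hφ (orderOf_eq_one_iff.1 h)
  haveI : Fact p.Prime := ⟨hp⟩
  have hp2 : p ≠ 2 := fun e => by
    subst e; exact Nat.not_even_iff_odd.2 hodd (even_iff_two_dvd.2 hpd)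
  have hp3 : p ≠ 3 := fun e => h3 (e ▸ hpd)
  have ho : 0 < orderOf φ := orderOf_pos φ
  set k := orderOf φ / p with hk
  set ψ := φ ^ k with hψ
  have hψo : orderOf ψ = p := orderOf_pow_orderOf_div ho.ne' hpd
  let F : Subgroup Q :=
    { carrier := {x | ψ x = x}
      one_mem' := map_one ψ
      mul_mem' := fun {a b} ha hb => by
        show ψ (a * b) = a * b
        rw [map_mul, show ψ a = a from ha, show ψ b = b from hb]
      inv_mem' := fun {a} ha => by
        show ψ a⁻¹ = a⁻¹
        rw [map_inv, show ψ a = a from ha] }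
  have hFne : F ≠ ⊤ := fun h => hp.ne_one (by
    rw [← hψo, orderOf_eq_one_iff]
    exact MulEquiv.ext fun x => (h.symm ▸ Subgroup.mem_top x : x ∈ F))
  letI : MulAction (Subgroup.zpowers ψ) Q :=
    MulAction.compHom Q (Subgroup.zpowers ψ).subtype
  have hpG : IsPGroup p (Subgroup.zpowers ψ) :=
    IsPGroup.of_card (n := 1) (by rw [Nat.card_zpowers, hψo, pow_one])
  have hfix : MulAction.fixedPoints (Subgroup.zpowers ψ) Q = (F : Set Q) := by
    ext x
    constructor
    · exact fun h => h ⟨ψ, Subgroup.mem_zpowers ψ⟩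
    · intro hx g
      obtain ⟨j, hj⟩ := Subgroup.mem_zpowers_iff.1 g.2
      show (g : MulAut Q) x = x
      rw [← hj]
      have hpow : ∀ i : ℕ, (ψ ^ i) x = x := fun i => by
        induction i with
        | zero => rfl
        | succ i ih => rw [pow_succ, MulAut.mul_apply, show ψ x = x from hx, ih]
      rcases Int.eq_nat_or_neg j with ⟨i, rfl | rfl⟩
      · rw [zpow_natCast]; exact hpow i
      · rw [zpow_neg, zpow_natCast]
        conv_lhs => rw [← hpow i]
        exact (ψ ^ i).symm_apply_apply x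
  have hmod := hpG.card_modEq_card_fixedPoints Q
  rw [hfix] at hmod
  have hFd : Nat.card F ∣ Nat.card Q := F.card_subgroup_dvd_card
  have hFlt : Nat.card F < Nat.card Q := by
    refine lt_of_le_of_ne (Nat.le_of_dvd Nat.card_pos hFd) fun e => hFne ?_
    exact Subgroup.eq_top_of_card_eq F e
  have hdiv : p ∣ Nat.card Q - Nat.card F := (Nat.modEq_iff_dvd' hFlt.le).1 hmod.symm
  have hkey : Nat.card Q = 8 ∧ Nat.card F = 1 ∧ p = 7 := by
    have hQle : Nat.card Q ≤ 8 := Nat.le_of_dvd (by norm_num) hQ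
    have hF8 : Nat.card F ∣ 8 := hFd.trans hQ
    have hple : p ≤ 8 := (Nat.le_of_dvd (by omega) hdiv).trans (by omega)
    have key : ∀ q : Fin 9, ∀ f : Fin 9, ∀ t : Fin 9,
        ((f : ℕ) < q ∧ (q : ℕ) ∣ 8 ∧ (f : ℕ) ∣ q ∧ 1 < (t : ℕ) ∧ ¬ 2 ∣ (t : ℕ) ∧ (t : ℕ) ≠ 3 ∧
          (t : ℕ) ∣ (q : ℕ) - f) → (q : ℕ) = 8 ∧ (f : ℕ) = 1 ∧ (t : ℕ) = 7 := by decide
    exact key ⟨Nat.card Q, by omega⟩ ⟨Nat.card F, by omega⟩ ⟨p, by omega⟩
      ⟨hFlt, hQ, hFd, hp.one_lt,
        fun h => hp2 ((Nat.prime_dvd_prime_iff_eq Nat.prime_two hp).1 h).symm, hp3, hdiv⟩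
  obtain ⟨hQ8, hF1, hp7⟩ := hkey
  have hfree : ∀ a : Q, φ a = a → a = 1 := by
    intro a ha
    have hpow : ∀ i : ℕ, (φ ^ i) a = a := fun i => by
      induction i with
      | zero => rfl
      | succ i ih => rw [pow_succ, MulAut.mul_apply, ha, ih]
    have : a ∈ F := hpow k
    rw [Subgroup.card_eq_one.1 hF1, Subgroup.mem_bot] at this
    exact this
  have htrans : ∀ a b : Q, a ≠ 1 → b ≠ 1 → ∃ j : ℕ, (φ ^ j) a = b := by
    intro a b ha hb
    let e : Fin 7 → {x : Q // x ≠ 1} := fun i => ⟨(ψ ^ (i : ℕ)) a, fun h =>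
      ha ((ψ ^ (i : ℕ)).injective (h.trans (map_one _).symm))⟩
    have hord : ∀ i : ℕ, 0 < i → i < 7 → (ψ ^ i) a ≠ a := by
      intro i hi hi7 h
      have hψi : ∀ j : ℕ, (ψ ^ (i * j)) a = a := fun j => by
        induction j with
        | zero => rfl
        | succ j ih => rw [mul_add, mul_one, pow_add, MulAut.mul_apply, h, ih]
      obtain ⟨j, hj⟩ : ∃ j : ℕ, i * j % 7 = 1 := by
        interval_cases i
        exacts [⟨1, rfl⟩, ⟨4, rfl⟩, ⟨5, rfl⟩, ⟨2, rfl⟩, ⟨3, rfl⟩, ⟨6, rfl⟩]
      have h1 := hψi j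
      rw [← pow_mod_orderOf, hψo, hp7, hj, pow_one] at h1
      have : a ∈ F := h1
      rw [Subgroup.card_eq_one.1 hF1, Subgroup.mem_bot] at this
      exact ha this
    have key : ∀ i l : ℕ, i ≤ l → l < 7 → (ψ ^ i) a = (ψ ^ l) a → i = l := by
      intro i l hil hl h
      by_contra hne
      refine hord (l - i) (by omega) (by omega) ((ψ ^ i).injective ?_)
      rw [← MulAut.mul_apply, ← pow_add, Nat.add_sub_cancel' hil, ← h]
    have hinj : Function.Injective e := by
      intro i j hij
      have h := congrArg Subtype.val hij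
      simp only [e] at h
      rcases le_total (i : ℕ) j with hle | hle
      · exact Fin.ext (key i j hle j.2 h)
      · exact Fin.ext (key j i hle i.2 h.symm).symm
    haveI : Fintype Q := Fintype.ofFinite Q
    classical
    have hbij : Function.Bijective e := (Nat.bijective_iff_injective_and_card e).2 ⟨hinj, by
      rw [Nat.card_fin, Nat.card_eq_fintype_card (α := {x : Q // x ≠ 1}),
        Fintype.card_subtype_compl, Fintype.card_subtype_eq, ← Nat.card_eq_fintype_card, hQ8]⟩
    obtain ⟨i, hi⟩ := hbij.2 ⟨b, hb⟩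
    refine ⟨k * i, ?_⟩
    rw [pow_mul]
    exact congrArg Subtype.val hi
  refine ⟨hQ8, fun x => ?_, hfree, htrans⟩
  haveI : Fact (Nat.Prime 2) := ⟨Nat.prime_two⟩
  obtain ⟨z, hz⟩ := exists_prime_orderOf_dvd_card' (G := Q) 2 (by rw [hQ8]; norm_num)
  by_cases hx : x = 1
  · rw [hx, one_mul]
  obtain ⟨j, hj⟩ := htrans z x (fun e => by rw [e, orderOf_one] at hz; omega) hx
  rw [← hj, ← map_mul, CfsgLib.Involutions.mul_self_eq_one hz, map_one]

end Automorphisms

section Normalizers

variable {G : Type u} [Group G] [Finite G]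

theorem exists_mulAut {Q : Subgroup G} {g : G} (hg : g ∈ Subgroup.normalizer (Q : Set G)) :
    ∃ φ : MulAut Q, φ = Q.normalizerMonoidHom ⟨g, hg⟩ ∧
      (φ = 1 ↔ g ∈ Subgroup.centralizer (Q : Set G)) := by
  refine ⟨_, rfl, ?_⟩
  rw [← MonoidHom.mem_ker, Subgroup.normalizerMonoidHom_ker, Subgroup.mem_subgroupOf]

/-- Frobenius' condition for a small 2-subgroup without a normalizing element of order three. -/
theorem mem_centralizer_of_coprime {Q : Subgroup G} {g : G}
    (hg : g ∈ Subgroup.normalizer (Q : Set G)) (hodd : (orderOf g).Coprime 2)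
    (hQ : Nat.card Q ∣ 8)
    (h3 : Nat.card Q ≤ 2 ∨ ¬ 3 ∣ Nat.card (Subgroup.normalizer (Q : Set G))) :
    g ∈ Subgroup.centralizer (Q : Set G) ∨ (Nat.card Q = 8 ∧ ∀ x ∈ Q, x * x = 1) := by
  obtain ⟨φ, hφ, hiff⟩ := exists_mulAut hg
  by_cases h1 : φ = 1
  · exact Or.inl (hiff.1 h1)
  rcases h3 with h3 | h3
  · exact absurd (mulAut_eq_one_of_card_le_two h3 φ) h1
  have hdvd : orderOf φ ∣ orderOf (⟨g, hg⟩ : Subgroup.normalizer (Q : Set G)) :=
    hφ ▸ orderOf_map_dvd _ _
  obtain ⟨h8, hsq, -, -⟩ := mulAut_small hQ h1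
    (Nat.coprime_two_right.1 (hodd.coprime_dvd_left (hdvd.trans (by rw [Subgroup.orderOf_mk]))))
    (fun h => h3 ((h.trans hdvd).trans (orderOf_dvd_natCard _)))
  exact Or.inr ⟨h8, fun x hx => congrArg Subtype.val (hsq ⟨x, hx⟩)⟩

/-- The action of the normalizer of an abelian Sylow 2-subgroup of order dividing eight. -/
theorem normalizer_abelian_sylow {Q : Subgroup G} (hQ : Nat.card Q ∣ 8)
    (hab : ∀ x ∈ Q, ∀ y ∈ Q, x * y = y * x) (hidx : ¬ 2 ∣ Q.index)
    (h3 : ¬ 3 ∣ Nat.card (Subgroup.normalizer (Q : Set G))) {g : G}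
    (hg : g ∈ Subgroup.normalizer (Q : Set G)) :
    g ∈ Subgroup.centralizer (Q : Set G) ∨ (Nat.card Q = 8 ∧
      (∀ a ∈ Q, g * a = a * g → a = 1) ∧
      ∀ a ∈ Q, a ≠ 1 → ∀ b ∈ Q, b ≠ 1 → ∃ j : ℕ, g ^ j * a * (g ^ j)⁻¹ = b) := by
  obtain ⟨φ, hφ, hiff⟩ := exists_mulAut hg
  by_cases h1 : φ = 1
  · exact Or.inl (hiff.1 h1)
  set N := Subgroup.normalizer (Q : Set G) with hN
  set C := (Subgroup.centralizer (Q : Set G)).subgroupOf N with hC
  have hker : Q.normalizerMonoidHom.ker = C := Subgroup.normalizerMonoidHom_ker Q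
  have hord : orderOf φ ∣ Q.normalizerMonoidHom.ker.index := by
    rw [hφ, Subgroup.index_ker]
    exact Subgroup.orderOf_dvd_natCard _ (MonoidHom.mem_range.2 ⟨_, rfl⟩)
  rw [hker] at hord
  have hQC : Q.subgroupOf N ≤ C := fun x hx => Subgroup.mem_subgroupOf.2
    (Subgroup.mem_centralizer_iff.2 fun y hy => hab y hy x hx)
  have hCodd : ¬ 2 ∣ C.index := fun h =>
    hidx ((h.trans (Subgroup.index_dvd_of_le hQC)).trans
      (Subgroup.relIndex_dvd_index_of_le Subgroup.le_normalizer))
  obtain ⟨h8, -, hfree, htrans⟩ := mulAut_small hQ h1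
    (Nat.not_even_iff_odd.1 fun he => hCodd ((even_iff_two_dvd.1 he).trans hord))
    (fun h => h3 ((h.trans hord).trans C.index_dvd_card))
  have happ : ∀ (j : ℕ) (a : Q), (((φ ^ j) a : Q) : G) = g ^ j * a * (g ^ j)⁻¹ := by
    intro j a
    rw [hφ, ← map_pow]
    rfl
  refine Or.inr ⟨h8, fun a ha hga => ?_, fun a ha ha1 b hb hb1 => ?_⟩
  · refine congrArg Subtype.val (hfree ⟨a, ha⟩ (Subtype.ext ?_))
    have := happ 1 ⟨a, ha⟩
    rw [pow_one, pow_one] at this
    rw [this]
    exact mul_inv_eq_iff_eq_mul.2 hga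
  · obtain ⟨j, hj⟩ := htrans ⟨a, ha⟩ ⟨b, hb⟩ (fun e => ha1 (congrArg Subtype.val e))
      (fun e => hb1 (congrArg Subtype.val e))
    exact ⟨j, by rw [← happ j ⟨a, ha⟩, hj]⟩

/-- A 2-subgroup of order at most eight has eight dividing the order of its normalizer, if it has
order four or eight. -/
theorem eight_dvd_normalizer {Q : Subgroup G} (h8 : 8 ∣ Nat.card G) (h16 : ¬ 16 ∣ Nat.card G)
    (hQ : Nat.card Q = 4 ∨ Nat.card Q = 8) :
    8 ∣ Nat.card (Subgroup.normalizer (Q : Set G)) := by
  haveI : Fact (Nat.Prime 2) := ⟨Nat.prime_two⟩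
  rcases hQ with hQ | hQ
  swap
  · exact hQ ▸ Subgroup.card_dvd_of_le Subgroup.le_normalizer
  obtain ⟨T, hT⟩ := (IsPGroup.of_card (p := 2) (n := 2) (by rw [hQ]; rfl) :
    IsPGroup 2 Q).exists_le_sylow
  have hTc : Nat.card (T : Subgroup G) = 8 := by
    rw [T.card_eq_multiplicity]
    have h1 : 3 ≤ (Nat.card G).factorization 2 :=
      (Nat.Prime.pow_dvd_iff_le_factorization Nat.prime_two Nat.card_pos.ne').1 h8
    have h2 : ¬ 4 ≤ (Nat.card G).factorization 2 := fun h =>
      h16 ((Nat.Prime.pow_dvd_iff_le_factorization Nat.prime_two Nat.card_pos.ne').2 h)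
    rw [show (Nat.card G).factorization 2 = 3 by omega]
    rfl
  have hidx : (Q.subgroupOf (T : Subgroup G)).index = 2 := by
    have h := (Q.subgroupOf (T : Subgroup G)).card_mul_index
    rw [Nat.card_congr (Subgroup.subgroupOfEquivOfLe hT).toEquiv, hQ, hTc] at h
    omega
  haveI := Subgroup.normal_of_index_eq_two hidx
  exact hTc ▸ Subgroup.card_dvd_of_le ((Subgroup.normal_subgroupOf_iff_le_normalizer hT).1 this)

end Normalizers

theorem coprime_twentyfour {N : ℕ} (h : 24 ∣ N) (h16 : ¬ 16 ∣ N) (h9 : ¬ 9 ∣ N) :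
    Nat.Coprime 24 (N / 24) := by
  obtain ⟨c, rfl⟩ := h
  rw [Nat.mul_div_cancel_left c (by norm_num), show (24 : ℕ) = 2 ^ 3 * 3 by norm_num]
  refine Nat.Coprime.mul_left (Nat.Coprime.pow_left 3 ?_) ?_
  · rw [Nat.prime_two.coprime_iff_not_dvd]; omega
  · rw [Nat.prime_three.coprime_iff_not_dvd]; omega

/-- Without a subgroup of order twenty-four no small 2-subgroup is normalized by a 3-element. -/
theorem not_three_dvd_normalizer {G : Type u} [Group G] [Finite G] (h8 : 8 ∣ Nat.card G)
    (h16 : ¬ 16 ∣ Nat.card G) (h9 : ¬ 9 ∣ Nat.card G)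
    (hno : ∀ H : Subgroup G, Nat.card H ≠ 24) {Q : Subgroup G}
    (hQ : Nat.card Q = 4 ∨ Nat.card Q = 8) :
    ¬ 3 ∣ Nat.card (Subgroup.normalizer (Q : Set G)) := by
  intro h3
  haveI := isSolvable_normalizer h16 hQ
  set N := Subgroup.normalizer (Q : Set G)
  have h24 : 24 ∣ Nat.card N :=
    (show Nat.Coprime 8 3 by norm_num).mul_dvd_of_dvd_of_dvd (eight_dvd_normalizer h8 h16 hQ) h3
  have hN : Nat.card N ∣ Nat.card G := Subgroup.card_subgroup_dvd_card N
  obtain ⟨H, hH⟩ := exists_card_of_solvable N h24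
    (coprime_twentyfour h24 (fun h => h16 (h.trans hN)) fun h => h9 (h.trans hN))
  exact hno H hH

/-- The inductive claim: no subgroup of order twenty-four forces solvability. -/
theorem isSolvable_of_no_twentyfour
    (hEight : ∀ (X : Type u) [Group X] [Finite X] (E : Subgroup X),
      EightSeven.Hyp E → 9 ∣ Nat.card X) :
    ∀ (k : ℕ) (G : Type u) [Group G] [Finite G], Nat.card G = k → 8 ∣ Nat.card G →
      ¬ 16 ∣ Nat.card G → ¬ 9 ∣ Nat.card G → (∀ H : Subgroup G, Nat.card H ≠ 24) →
      Group.IsSolvable G := by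
  intro k
  induction k using Nat.strong_induction_on with
  | _ k ih =>
  intro G _ _ hk h8 h16 h9 hno
  haveI : Fact (Nat.Prime 2) := ⟨Nat.prime_two⟩
  by_contra hns
  -- the proper subgroups are solvable
  have hsub : ∀ X : Subgroup G, X ≠ ⊤ → Group.IsSolvable X := by
    intro X hX
    have hlt : Nat.card X < k := by
      rw [← hk]
      refine lt_of_le_of_ne (Nat.le_of_dvd Nat.card_pos X.card_subgroup_dvd_card) fun e => hX ?_
      exact Subgroup.eq_top_of_card_eq X e
    by_cases hX8 : 8 ∣ Nat.card X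
    · exact ih _ hlt X rfl hX8 (fun h => h16 (h.trans X.card_subgroup_dvd_card))
        (fun h => h9 (h.trans X.card_subgroup_dvd_card)) fun H hH =>
        hno (H.map X.subtype) (by rw [Subgroup.card_map_of_injective X.subtype_injective, hH])
    by_cases hX4 : 4 ∣ Nat.card X
    swap
    · exact isSolvable_of_not_four hX4
    obtain ⟨S⟩ : Nonempty (Sylow 2 X) := inferInstance
    have hSc : Nat.card (S : Subgroup X) = 4 := by
      rw [S.card_eq_multiplicity]
      have h1 : 2 ≤ (Nat.card X).factorization 2 :=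
        (Nat.Prime.pow_dvd_iff_le_factorization Nat.prime_two Nat.card_pos.ne').1 hX4
      have h2 : ¬ 3 ≤ (Nat.card X).factorization 2 := fun h =>
        hX8 ((Nat.Prime.pow_dvd_iff_le_factorization Nat.prime_two Nat.card_pos.ne').2 h)
      rw [show (Nat.card X).factorization 2 = 2 by omega]
      rfl
    have hab : ∀ x ∈ (S : Subgroup X), ∀ y ∈ (S : Subgroup X), x * y = y * x := fun x hx y hy =>
      congrArg Subtype.val (IsPGroup.commutative_of_card_eq_prime_sq (p := 2)
        (G := (S : Subgroup X)) (by rw [hSc]; rfl) ⟨x, hx⟩ ⟨y, hy⟩)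
    set F := (S : Subgroup X).map X.subtype with hF
    have hFc : Nat.card F = 4 := by rw [hF, Subgroup.card_map_of_injective X.subtype_injective, hSc]
    have h3 : ¬ 3 ∣ Nat.card (Subgroup.normalizer ((S : Subgroup X) : Set X)) := fun h => by
      refine not_three_dvd_normalizer h8 h16 h9 hno (Or.inl hFc) (h.trans ?_)
      rw [Nat.card_congr (Subgroup.equivMapOfInjective
        (Subgroup.normalizer ((S : Subgroup X) : Set X)) X.subtype X.subtype_injective).toEquiv]
      exact Subgroup.card_dvd_of_le (Subgroup.le_normalizer_map X.subtype)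
    refine isSolvable_of_normalizer_le_centralizer_two S fun g hg => ?_
    rcases normalizer_abelian_sylow (by rw [hSc]; norm_num) hab S.not_dvd_index h3 hg with h | h
    · exact h
    · omega
  -- an elementary abelian Sylow subgroup
  obtain ⟨E, hE8, hsq⟩ : ∃ E : Subgroup G, Nat.card E = 8 ∧ ∀ x ∈ E, x * x = 1 := by
    by_contra hcon
    refine hns (isSolvable_of_normalPComplement_two
      (NormalPComplement.hasNormalPComplement_of_frobeniusCondition fun Q hQ g hg hcop => ?_))
    obtain ⟨i, hi⟩ := hQ.exists_card_eq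
    have hi3 : i ≤ 3 := by
      by_contra h
      exact h16 (((pow_dvd_pow 2 (show 4 ≤ i by omega)).trans (dvd_of_eq hi.symm)).trans
        Q.card_subgroup_dvd_card)
    have hQd : Nat.card Q ∣ 8 := hi ▸ (pow_dvd_pow 2 hi3).trans (dvd_of_eq rfl)
    have hcases : Nat.card Q ≤ 2 ∨ ¬ 3 ∣ Nat.card (Subgroup.normalizer (Q : Set G)) := by
      rcases Nat.lt_or_ge i 2 with h | h
      · left; rw [hi]; exact (Nat.pow_le_pow_right (by norm_num) (show i ≤ 1 by omega)).trans le_rfl
      · right
        refine not_three_dvd_normalizer h8 h16 h9 hno ?_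
        rcases (show i = 2 ∨ i = 3 by omega) with rfl | rfl
        · exact Or.inl hi
        · exact Or.inr hi
    rcases mem_centralizer_of_coprime hg hcop hQd hcases with h | h
    · exact h
    · exact absurd ⟨Q, h⟩ hcon
  have hcomm : ∀ x ∈ E, ∀ y ∈ E, x * y = y * x := by
    intro x hx y hy
    have h1 := hsq _ (E.mul_mem hx hy)
    calc x * y = (x * y)⁻¹ := (inv_eq_of_mul_eq_one_left h1).symm
      _ = y * x := by
        rw [mul_inv_rev, inv_eq_of_mul_eq_one_left (hsq x hx),
          inv_eq_of_mul_eq_one_left (hsq y hy)]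
  have hEp : IsPGroup 2 E := IsPGroup.of_card (n := 3) (by rw [hE8]; rfl)
  have hidx : ¬ 2 ∣ E.index := fun h => h16 (by
    rw [← E.card_mul_index, hE8, show (16 : ℕ) = 8 * 2 by norm_num]
    exact mul_dvd_mul_left 8 h)
  have h3 := not_three_dvd_normalizer h8 h16 h9 hno (Or.inr hE8)
  have hnorm := fun (g : G) (hg : g ∈ Subgroup.normalizer (E : Set G)) =>
    normalizer_abelian_sylow (by rw [hE8]) hcomm hidx h3 hg
  -- the normalizer is transitive
  have htrans : ∀ a ∈ E, a ≠ 1 → ∀ b ∈ E, b ≠ 1 →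
      ∃ n ∈ Subgroup.normalizer (E : Set G), n * a * n⁻¹ = b := by
    obtain ⟨g, hg, hgc⟩ : ∃ g ∈ Subgroup.normalizer (E : Set G),
        g ∉ Subgroup.centralizer (E : Set G) := by
      by_contra hcon
      push Not at hcon
      exact hns (isSolvable_of_normalizer_le_centralizer_two (hEp.toSylow hidx) hcon)
    obtain ⟨-, -, ht⟩ := (hnorm g hg).resolve_left hgc
    intro a ha ha1 b hb hb1
    obtain ⟨j, hj⟩ := ht a ha ha1 b hb hb1
    exact ⟨g ^ j, Subgroup.pow_mem _ hg j, hj⟩
  have hfpf : ∀ n ∈ Subgroup.normalizer (E : Set G), ∀ a ∈ E, a ≠ 1 → n * a = a * n →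
      n ∈ Subgroup.centralizer (E : Set G) := fun n hn a ha ha1 hna =>
    (hnorm n hn).resolve_right fun h => ha1 (h.2.1 a ha hna)
  -- no normal subgroup of odd order
  have hcore : ∀ N : Subgroup G, N.Normal → N ≠ ⊥ → 2 ∣ Nat.card N := by
    intro N hN hN1
    by_contra hodd
    haveI := hN
    haveI : Group.IsSolvable N :=
      Cfsg.Agent.S0205.result (Nat.not_even_iff_odd.1 fun he => hodd (even_iff_two_dvd.1 he))
    have hmul : Nat.card (G ⧸ N) * Nat.card N = Nat.card G :=
      (Subgroup.card_eq_card_quotient_mul_card_subgroup N).symm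
    have hlt : Nat.card (G ⧸ N) < k := by
      rw [← hk, ← hmul]
      exact lt_mul_of_one_lt_right Nat.card_pos (((Subgroup.one_lt_card_iff_ne_bot N).2 hN1))
    have hdvd : Nat.card (G ⧸ N) ∣ Nat.card G := hmul ▸ dvd_mul_right _ _
    have hq8 : 8 ∣ Nat.card (G ⧸ N) := by
      refine Nat.Coprime.dvd_of_dvd_mul_right ?_ (hmul ▸ h8)
      exact (show (8 : ℕ) = 2 ^ 3 by norm_num) ▸
        ((Nat.prime_two.coprime_iff_not_dvd).2 hodd).pow_left 3
    haveI : Group.IsSolvable (G ⧸ N) := by
      refine ih _ hlt (G ⧸ N) rfl hq8 (fun h => h16 (h.trans hdvd)) (fun h => h9 (h.trans hdvd))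
        fun H hH => ?_
      set K := H.comap (QuotientGroup.mk' N) with hK
      haveI : Group.IsSolvable H :=
        CharTheory.isSolvable_of_card_dvd_pow_mul_pow 2 3 3 1 Nat.prime_two Nat.prime_three
          (by rw [hH]; norm_num)
      haveI : Group.IsSolvable K := by
        refine Group.isSolvable_of_ker_le_range
          (Subgroup.inclusion (show N ≤ K from
            (QuotientGroup.ker_mk' N).ge.trans (Subgroup.ker_le_comap _ _)))
          ((QuotientGroup.mk' N).subgroupComap H) fun x hx => ?_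
        have hxN : (x : G) ∈ N := (QuotientGroup.eq_one_iff _).1 (congrArg Subtype.val hx)
        exact ⟨⟨x, hxN⟩, rfl⟩
      have hKc : Nat.card K = 24 * Nat.card N := by
        have h1 := K.card_mul_index
        rw [Subgroup.index_comap_of_surjective _ (QuotientGroup.mk'_surjective N), ← hmul,
          ← H.card_mul_index, hH] at h1
        exact Nat.eq_of_mul_eq_mul_right (Nat.pos_of_ne_zero Subgroup.index_ne_zero_of_finite)
          (h1.trans (by ring))
      have h24 : 24 ∣ Nat.card K := hKc ▸ dvd_mul_right _ _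
      obtain ⟨L, hL⟩ := exists_card_of_solvable K h24 (coprime_twentyfour h24
        (fun h => h16 (h.trans K.card_subgroup_dvd_card))
        fun h => h9 (h.trans K.card_subgroup_dvd_card))
      exact hno L hL
    exact hns (Group.isSolvable_of_ker_le_range N.subtype (QuotientGroup.mk' N)
      (by rw [QuotientGroup.ker_mk', Subgroup.range_subtype]))
  -- simplicity
  have hsimple : IsSimpleGroup G := by
    haveI : Nontrivial G := by
      by_contra h
      rw [not_nontrivial_iff_subsingleton] at h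
      exact hns inferInstance
    refine ⟨fun K hK => ?_⟩
    by_contra hcon
    rw [not_or] at hcon
    haveI := hK
    obtain ⟨u, hu⟩ := exists_prime_orderOf_dvd_card' (G := K) 2 (hcore K hK hcon.1)
    obtain ⟨T, hT⟩ := (IsPGroup.of_card (p := 2) (n := 1) (by
      rw [Nat.card_zpowers, Subgroup.orderOf_coe, hu, pow_one]) :
      IsPGroup 2 (Subgroup.zpowers (u : G))).exists_le_sylow
    obtain ⟨g, hg⟩ := MulAction.exists_smul_eq G T (hEp.toSylow hidx)
    have hgu : g * (u : G) * g⁻¹ ∈ E := by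
      have : g * (u : G) * g⁻¹ ∈ (MulAut.conj g • (T : Subgroup G) : Subgroup G) :=
        CfsgLib.CoprimeAction.mem_conj_iff.2
          (by simpa [mul_assoc] using hT (Subgroup.mem_zpowers _))
      rw [← Sylow.coe_subgroup_smul, hg] at this
      exact this
    have hu1 : g * (u : G) * g⁻¹ ≠ 1 := fun e => by
      have e' : (u : G) = 1 := conj_eq_one_iff.1 e
      rw [← Subgroup.orderOf_coe, e', orderOf_one] at hu
      omega
    have hEK : E ≤ K := by
      intro b hb
      by_cases hb1 : b = 1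
      · exact hb1 ▸ K.one_mem
      obtain ⟨m, -, hm⟩ := htrans _ hgu hu1 b hb hb1
      exact hm ▸ hK.conj_mem _ (hK.conj_mem _ u.2 g) m
    haveI : Group.IsSolvable K := hsub K hcon.2
    haveI : Group.IsSolvable (G ⧸ K) := Cfsg.Agent.S0205.result
      (Nat.not_even_iff_odd.1 fun he => hidx
        ((even_iff_two_dvd.1 he).trans (Subgroup.index_dvd_of_le hEK)))
    exact hns (Group.isSolvable_of_ker_le_range K.subtype (QuotientGroup.mk' K)
      (by rw [QuotientGroup.ker_mk', Subgroup.range_subtype]))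
  exact h9 (hEight G E ⟨hsimple, hE8, hsq, hidx, hsub, hns, htrans, hfpf⟩)

/-- The easy Hall numbers. -/
theorem exists_card_of_easy {G : Type*} [Group G] [Finite G] {m : ℕ} (hm : m ∣ Nat.card G)
    (hc : m.Coprime (Nat.card G / m)) (h : IsPrimePow m ∨ m % 4 = 2 ∨ m = 12) :
    ∃ H : Subgroup G, Nat.card H = m := by
  rcases h with h | h | h
  · obtain ⟨p, k, hp, -, rfl⟩ := (isPrimePow_nat_iff m).1 h
    haveI : Fact p.Prime := ⟨hp⟩
    exact Sylow.exists_subgroup_card_pow_prime p hm
  · haveI : Group.IsSolvable G := isSolvable_of_not_four fun h4 => by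
      obtain ⟨c, hcc⟩ := hm
      rw [hcc, Nat.mul_div_cancel_left c (by omega)] at hc
      have h2 : 2 ∣ m := by omega
      have hc2 : ¬ 2 ∣ c := fun h2c =>
        absurd (Nat.eq_one_of_dvd_coprimes hc h2 h2c) (by norm_num)
      have h4m : 4 ∣ m := by
        refine Nat.Coprime.dvd_of_dvd_mul_right ?_ (hcc ▸ h4)
        exact (show (4 : ℕ) = 2 ^ 2 by norm_num) ▸
          ((Nat.prime_two.coprime_iff_not_dvd).2 hc2).pow_left 2
      omega
    exact Cfsg.Agent.S0003.result m (Nat.card G / m) (Nat.mul_div_cancel' hm).symm hc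
  · subst h
    by_cases hs : Group.IsSolvable G
    · exact Cfsg.Agent.S0003.result 12 (Nat.card G / 12) (Nat.mul_div_cancel' hm).symm hc
    haveI : Fact (Nat.Prime 2) := ⟨Nat.prime_two⟩
    obtain ⟨c, hcc⟩ := hm
    have hc' := hc
    rw [hcc, Nat.mul_div_cancel_left c (by norm_num)] at hc'
    have hc2 : ¬ 2 ∣ c := fun h => absurd (Nat.eq_one_of_dvd_coprimes hc' (by norm_num) h) (by norm_num)
    have h8 : ¬ 8 ∣ Nat.card G := by omega
    obtain ⟨P⟩ : Nonempty (Sylow 2 G) := inferInstance
    have hPc : Nat.card (P : Subgroup G) = 4 := by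
      rw [P.card_eq_multiplicity]
      have h1 : 2 ≤ (Nat.card G).factorization 2 :=
        (Nat.Prime.pow_dvd_iff_le_factorization Nat.prime_two Nat.card_pos.ne').1 (by omega)
      have h2 : ¬ 3 ≤ (Nat.card G).factorization 2 := fun h =>
        h8 ((Nat.Prime.pow_dvd_iff_le_factorization Nat.prime_two Nat.card_pos.ne').2 h)
      rw [show (Nat.card G).factorization 2 = 2 by omega]
      rfl
    have hab : ∀ x ∈ (P : Subgroup G), ∀ y ∈ (P : Subgroup G), x * y = y * x := fun x hx y hy =>
      congrArg Subtype.val (IsPGroup.commutative_of_card_eq_prime_sq (p := 2)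
        (G := (P : Subgroup G)) (by rw [hPc]; rfl) ⟨x, hx⟩ ⟨y, hy⟩)
    set N := Subgroup.normalizer ((P : Subgroup G) : Set G) with hN
    have h3 : 3 ∣ Nat.card N := by
      by_contra h3
      refine hs (isSolvable_of_normalizer_le_centralizer_two P fun g hg => ?_)
      rcases normalizer_abelian_sylow (by rw [hPc]; norm_num) hab P.not_dvd_index h3 hg with h | h
      · exact h
      · omega
    haveI := isSolvable_normalizer (G := G) (Q := (P : Subgroup G))
      (fun h => h8 ((show (8 : ℕ) ∣ 16 by norm_num).trans h)) (Or.inl hPc)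
    have h12 : 12 ∣ Nat.card N :=
      (show Nat.Coprime 4 3 by norm_num).mul_dvd_of_dvd_of_dvd
        (hPc ▸ Subgroup.card_dvd_of_le Subgroup.le_normalizer) h3
    exact exists_card_of_solvable N h12
      (coprime_div_of_dvd h12 (Subgroup.card_subgroup_dvd_card N) hc)

/-- The Hall number twenty-four, from the case of elementary abelian Sylow 2-subgroups of order
eight with automizer of order seven. -/
theorem exists_card_twentyfour
    (hEight : ∀ (X : Type u) [Group X] [Finite X] (E : Subgroup X),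
      CfsgLib.HallNumber.EightSeven.Hyp E → 9 ∣ Nat.card X)
    {G : Type u} [Group G] [Finite G] (h : 24 ∣ Nat.card G)
    (hc : Nat.Coprime 24 (Nat.card G / 24)) : ∃ H : Subgroup G, Nat.card H = 24 := by
  by_contra hcon
  push Not at hcon
  obtain ⟨c, hcc⟩ := h
  have hc' := hc
  rw [hcc, Nat.mul_div_cancel_left c (by norm_num)] at hc'
  have hc2 : ¬ 2 ∣ c := fun h => absurd (Nat.eq_one_of_dvd_coprimes hc' (by norm_num) h) (by norm_num)
  have hc3 : ¬ 3 ∣ c := fun h => absurd (Nat.eq_one_of_dvd_coprimes hc' (by norm_num) h) (by norm_num)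
  haveI := isSolvable_of_no_twentyfour hEight _ G rfl (by omega) (by omega) (by omega) hcon
  obtain ⟨H, hH⟩ := Cfsg.Agent.S0003.result 24 (Nat.card G / 24)
    (Nat.mul_div_cancel' ⟨c, hcc⟩).symm hc
  exact hcon H hH

end CfsgLib.HallNumber
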